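import Cfsg.Prelude.Def_FusionSystem
import Cfsg.Agent.H96.QdTI
import Cfsg.Agent.H37.QdK

/-!
# A group whose Sylow `p`-subgroup is normal in the fusion system does not involve `Qd(p)` (helper461, S3837)

`control`: `S` normal in `F_S(G)` means that `N_G(S)` controls strong fusion in `S`. `not_involves_of_pairs`: if in all
`N_G(Q) / C_G(Q)` products of two `p`-elements are `p`-elements, then `Qd(p)` is not involved in `G`.
-/

set_option autoImplicit false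

namespace Cfsg.Agent.H461.PStab

open Subgroup
open Cfsg.Agent.H96.QdTI Cfsg.Agent.PLocal.QdSection

/-- `S` normal in the fusion system of `G` on `S`: the normalizer of `S` controls strong fusion. -/
theorem control {G : Type*} [Group G] {S : Subgroup G} (h : (Cfsg.groupFusionSystem S).IsNormal S)
    {A : Subgroup G} (hA : A ≤ S) {g : G} (hg : ∀ a ∈ A, g * a * g⁻¹ ∈ S) :
    ∃ n ∈ normalizer (S : Set G), ∀ a ∈ A, n * a * n⁻¹ = g * a * g⁻¹ := by
  obtain ⟨ψ, ⟨-, hψS, n, hn⟩, hψA, hψ⟩ := h.2 A (Cfsg.conjHom A g)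
    ⟨hA, fun x => hg x x.2, g, fun x => rfl⟩
  refine ⟨n, ?_, fun a ha => ?_⟩
  · have key : ∀ s, s ∈ S ↔ n * s * n⁻¹ ∈ S := by
      intro s
      constructor
      · intro hs
        have h1 := hψS ⟨s, le_sup_right (a := A) hs⟩
        rwa [hn] at h1
      · intro hs
        rw [← hψ] at hs
        obtain ⟨x, hx, hxs⟩ := hs
        rw [hn] at hxs
        have h1 : (x : G) = s := mul_left_cancel (mul_right_cancel hxs)
        rw [← h1]
        exact hx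
    exact mem_normalizer_iff.2 key
  · have h1 := hψA ⟨a, ha⟩
    rw [hn] at h1
    exact h1

/-- In `Q.normalizerMonoidHom`, elements with the same conjugation action. -/
theorem normalizerMonoidHom_eq_iff {G : Type*} [Group G] {Q : Subgroup G} (x y : normalizer (Q : Set G)) :
    Q.normalizerMonoidHom x = Q.normalizerMonoidHom y ↔
      ∀ q ∈ Q, (x : G) * q * (x : G)⁻¹ = (y : G) * q * (y : G)⁻¹ := by
  constructor
  · intro h q hq
    exact congrArg Subtype.val (DFunLike.congr_fun h ⟨q, hq⟩)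
  · intro h
    ext q
    exact h q q.2

section Pairs

variable {G : Type*} [Group G] [Finite G] {p : ℕ} [hpf : Fact p.Prime]

/-- A `p`-element normalising `Q ≤ S` acts on `Q` as an element of `S`. -/
theorem exists_mem_sylow {S : Sylow p G}
    (hc : ∀ A : Subgroup G, A ≤ (S : Subgroup G) → ∀ g : G, (∀ a ∈ A, g * a * g⁻¹ ∈ (S : Subgroup G)) →
      ∃ n ∈ normalizer ((S : Subgroup G) : Set G), ∀ a ∈ A, n * a * n⁻¹ = g * a * g⁻¹)
    {Q : Subgroup G} (hQ : Q ≤ (S : Subgroup G)) (y : normalizer (Q : Set G)) (k : ℕ) (hy : (y : G) ^ p ^ k = 1) :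
    ∃ s : normalizer (Q : Set G), (s : G) ∈ (S : Subgroup G) ∧
      Q.normalizerMonoidHom s = Q.normalizerMonoidHom y := by
  have hQp : IsPGroup p Q := S.isPGroup'.to_le hQ
  have hyp : IsPGroup p (zpowers (y : G)) := by
    refine IsPGroup.of_card (n := ?_) ?_
    · exact ((Nat.dvd_prime_pow hpf.out).1 (orderOf_dvd_of_pow_eq_one hy)).choose
    · rw [Nat.card_zpowers]
      exact ((Nat.dvd_prime_pow hpf.out).1 (orderOf_dvd_of_pow_eq_one hy)).choose_spec.2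
  have hR : IsPGroup p (Q ⊔ zpowers (y : G) : Subgroup G) := by
    refine IsPGroup.to_sup_of_normal_left' hQp hyp ?_
    rw [zpowers_le]
    exact y.2
  obtain ⟨S', hS'⟩ := hR.exists_le_sylow
  obtain ⟨z, hz⟩ := MulAction.exists_smul_eq G S' S
  have hzS : ∀ x ∈ (S' : Subgroup G), z * x * z⁻¹ ∈ (S : Subgroup G) := by
    intro x hx
    rw [← hz]
    exact ⟨x, hx, rfl⟩
  obtain ⟨n, hn, hnz⟩ := hc Q hQ z (fun a ha => hzS a (hS' (le_sup_left (b := zpowers (y : G)) ha)))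
  -- `c = n⁻¹ z` centralises `Q`
  have hcQ : ∀ q ∈ Q, (n⁻¹ * z) * q * (n⁻¹ * z)⁻¹ = q := by
    intro q hq
    have e : (n⁻¹ * z) * q * (n⁻¹ * z)⁻¹ = n⁻¹ * (z * q * z⁻¹) * n := by group
    rw [e, ← hnz q hq]; group
  have hcN : n⁻¹ * z ∈ normalizer (Q : Set G) := by
    rw [mem_normalizer_iff]
    intro q
    constructor
    · intro hq
      rw [hcQ q hq]; exact hq
    · intro hq
      have hq' : (n⁻¹ * z) * q * (n⁻¹ * z)⁻¹ ∈ Q := hq
      have h1 := hcQ _ hq'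
      have h2 : (n⁻¹ * z) * q * (n⁻¹ * z)⁻¹ = q := mul_left_cancel (mul_right_cancel h1)
      rwa [h2] at hq'
  have hs : (n⁻¹ * z) * y * (n⁻¹ * z)⁻¹ ∈ (S : Subgroup G) := by
    have e : (n⁻¹ * z) * y * (n⁻¹ * z)⁻¹ = n⁻¹ * (z * y * z⁻¹) * n := by group
    rw [e]
    have h1 := hzS y (hS' (le_sup_right (a := Q) (mem_zpowers (y : G))))
    have h2 := (mem_normalizer_iff.1 (inv_mem hn) (z * y * z⁻¹)).1 h1
    rwa [inv_inv] at h2
  refine ⟨⟨n⁻¹ * z, hcN⟩ * y * ⟨n⁻¹ * z, hcN⟩⁻¹, hs, ?_⟩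
  rw [normalizerMonoidHom_eq_iff]
  intro q hq
  change ((n⁻¹ * z) * y * (n⁻¹ * z)⁻¹) * q * ((n⁻¹ * z) * y * (n⁻¹ * z)⁻¹)⁻¹ = y * q * (y : G)⁻¹
  have h1 : (n⁻¹ * z)⁻¹ * q * (n⁻¹ * z) = q := by
    have h2 := hcQ q hq
    calc (n⁻¹ * z)⁻¹ * q * (n⁻¹ * z) = (n⁻¹ * z)⁻¹ * ((n⁻¹ * z) * q * (n⁻¹ * z)⁻¹) * (n⁻¹ * z) := by rw [h2]
      _ = q := by group
  have h2 : y * q * (y : G)⁻¹ ∈ Q := (mem_normalizer_iff.1 y.2 q).1 hq
  calc ((n⁻¹ * z) * y * (n⁻¹ * z)⁻¹) * q * ((n⁻¹ * z) * y * (n⁻¹ * z)⁻¹)⁻¹ =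
        (n⁻¹ * z) * (y * ((n⁻¹ * z)⁻¹ * q * (n⁻¹ * z)) * (y : G)⁻¹) * (n⁻¹ * z)⁻¹ := by group
    _ = (n⁻¹ * z) * (y * q * (y : G)⁻¹) * (n⁻¹ * z)⁻¹ := by rw [h1]
    _ = _ := hcQ _ h2

/-- Products of `p`-elements of `N_G(Q)` are `p`-elements modulo `C_G(Q)`, `Q ≤ S`. -/
theorem pairs_of_le {S : Sylow p G}
    (hc : ∀ A : Subgroup G, A ≤ (S : Subgroup G) → ∀ g : G, (∀ a ∈ A, g * a * g⁻¹ ∈ (S : Subgroup G)) →
      ∃ n ∈ normalizer ((S : Subgroup G) : Set G), ∀ a ∈ A, n * a * n⁻¹ = g * a * g⁻¹)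
    {Q : Subgroup G} (hQ : Q ≤ (S : Subgroup G)) (y y' : normalizer (Q : Set G)) (k k' : ℕ)
    (hy : (y : G) ^ p ^ k = 1) (hy' : (y' : G) ^ p ^ k' = 1) :
    ∃ n : ℕ, ∀ q ∈ Q, Commute (((y : G) * y') ^ p ^ n) q := by
  obtain ⟨s, hs, hsy⟩ := exists_mem_sylow hc hQ y k hy
  obtain ⟨s', hs', hsy'⟩ := exists_mem_sylow hc hQ y' k' hy'
  obtain ⟨n, hn⟩ := S.isPGroup' ⟨s * s', (S : Subgroup G).mul_mem hs hs'⟩
  have hn' : ((s : G) * s') ^ p ^ n = 1 := congrArg Subtype.val hn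
  refine ⟨n, fun q hq => ?_⟩
  have h1 : Q.normalizerMonoidHom ((y * y') ^ p ^ n) = Q.normalizerMonoidHom 1 := by
    rw [map_pow, map_mul, ← hsy, ← hsy', ← map_mul, ← map_pow]
    congr 1
    exact Subtype.ext hn'
  rw [normalizerMonoidHom_eq_iff] at h1
  have h2 := h1 q hq
  have h3 : ((y : G) * y') ^ p ^ n * q * (((y : G) * y') ^ p ^ n)⁻¹ = q := by
    have h4 : (((1 : normalizer (Q : Set G)) : G)) * q * ((1 : normalizer (Q : Set G)) : G)⁻¹ = q := by simp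
    exact h2.trans h4
  exact mul_inv_eq_iff_eq_mul.1 h3

theorem pairs {S : Sylow p G}
    (hc : ∀ A : Subgroup G, A ≤ (S : Subgroup G) → ∀ g : G, (∀ a ∈ A, g * a * g⁻¹ ∈ (S : Subgroup G)) →
      ∃ n ∈ normalizer ((S : Subgroup G) : Set G), ∀ a ∈ A, n * a * n⁻¹ = g * a * g⁻¹)
    {Q : Subgroup G} (hQ : IsPGroup p Q) (y y' : normalizer (Q : Set G)) (k k' : ℕ)
    (hy : (y : G) ^ p ^ k = 1) (hy' : (y' : G) ^ p ^ k' = 1) :
    ∃ n : ℕ, ∀ q ∈ Q, Commute (((y : G) * y') ^ p ^ n) q := by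
  obtain ⟨S', hS'⟩ := hQ.exists_le_sylow
  obtain ⟨z, hz⟩ := MulAction.exists_smul_eq G S' S
  have hzS : ∀ x ∈ (S' : Subgroup G), z * x * z⁻¹ ∈ (S : Subgroup G) := by
    intro x hx
    rw [← hz]
    exact ⟨x, hx, rfl⟩
  set Q' := Q.map (MulAut.conj z).toMonoidHom with hQ'
  have hQ'S : Q' ≤ (S : Subgroup G) := by
    rintro _ ⟨x, hx, rfl⟩
    exact hzS x (hS' hx)
  have hN : ∀ w : normalizer (Q : Set G), z * w * z⁻¹ ∈ normalizer (Q' : Set G) := by
    intro w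
    rw [mem_normalizer_iff]
    intro q
    have e0 : ∀ t : G, t ∈ Q' ↔ z⁻¹ * t * z ∈ Q := by
      intro t
      constructor
      · rintro ⟨x, hx, rfl⟩
        change z⁻¹ * (z * x * z⁻¹) * z ∈ Q
        have e : z⁻¹ * (z * x * z⁻¹) * z = x := by group
        rw [e]; exact hx
      · intro ht
        refine ⟨_, ht, ?_⟩
        change z * (z⁻¹ * t * z) * z⁻¹ = t
        group
    rw [e0, e0]
    have h1 := mem_normalizer_iff.1 w.2 (z⁻¹ * q * z)
    have e : z⁻¹ * (z * w * z⁻¹ * q * (z * w * z⁻¹)⁻¹) * z = w * (z⁻¹ * q * z) * (w : G)⁻¹ := by group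
    rw [e]
    exact h1
  have hpow : ∀ (w : G) (n : ℕ), (z * w * z⁻¹) ^ n = z * w ^ n * z⁻¹ := fun w n => conj_pow
  obtain ⟨n, hn⟩ := pairs_of_le hc hQ'S ⟨_, hN y⟩ ⟨_, hN y'⟩ k k' (by
    change (z * y * z⁻¹) ^ p ^ k = 1
    rw [hpow, hy]; group) (by
    change (z * y' * z⁻¹) ^ p ^ k' = 1
    rw [hpow, hy']; group)
  refine ⟨n, fun q hq => ?_⟩
  have h1 : Commute (((z * y * z⁻¹) * (z * y' * z⁻¹)) ^ p ^ n) (z * q * z⁻¹) := hn (z * q * z⁻¹) ⟨q, hq, rfl⟩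
  have e1 : (z * y * z⁻¹) * (z * y' * z⁻¹) = z * (y * y') * z⁻¹ := by group
  rw [e1, hpow] at h1
  have h2 : z * (y * y' : G) ^ p ^ n * z⁻¹ * (z * q * z⁻¹) = z * q * z⁻¹ * (z * (y * y' : G) ^ p ^ n * z⁻¹) := h1.eq
  have h3 : z * ((y * y' : G) ^ p ^ n * q) * z⁻¹ = z * (q * (y * y' : G) ^ p ^ n) * z⁻¹ := by
    calc z * ((y * y' : G) ^ p ^ n * q) * z⁻¹ = z * (y * y' : G) ^ p ^ n * z⁻¹ * (z * q * z⁻¹) := by group
      _ = z * q * z⁻¹ * (z * (y * y' : G) ^ p ^ n * z⁻¹) := h2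
      _ = _ := by group
  exact mul_left_cancel (mul_right_cancel h3)

end Pairs

/-- Lift of an element of order `p` to a `p`-element. -/
theorem exists_pelement {K Y : Type*} [Group K] [Finite K] [Group Y] {p : ℕ} [hpf : Fact p.Prime] (f : K →* Y)
    (x : K) (hx : f x ^ p = 1) : ∃ x' ∈ zpowers x, f x' = f x ∧ ∃ k : ℕ, x' ^ p ^ k = 1 := by
  obtain ⟨j, m, hm, hxm⟩ := Nat.exists_eq_pow_mul_and_not_dvd (orderOf_pos x).ne' p hpf.out.one_lt.ne'
  have hcop : Nat.Coprime m p := ((Nat.Prime.coprime_iff_not_dvd hpf.out).2 hm).symm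
  obtain ⟨t, -, ht⟩ := Nat.exists_mul_mod_eq_one_of_coprime hcop hpf.out.one_lt
  refine ⟨x ^ (m * t), ⟨(m * t : ℕ), zpow_natCast x _⟩, ?_, j, ?_⟩
  · rw [map_pow]
    have h1 : m * t = p * (m * t / p) + 1 := by
      conv_lhs => rw [← Nat.div_add_mod (m * t) p, ht]
    rw [h1, pow_succ, pow_mul, hx, one_pow, one_mul]
  · rw [← pow_mul, show m * t * p ^ j = (p ^ j * m) * t by ring, ← hxm, pow_mul, pow_orderOf_eq_one, one_pow]

/-- **`Qd(p)` is not a section** of a finite group in which products of two `p`-elements of `N_G(Q)` are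
`p`-elements modulo `C_G(Q)`, for every `p`-subgroup `Q`. -/
theorem not_involves_of_pairs {p : ℕ} [hpf : Fact p.Prime] (hp : p ≠ 2) {G : Type*} [Group G] [Finite G]
    (h : ∀ Q : Subgroup G, IsPGroup p Q → ∀ (y y' : normalizer (Q : Set G)) (k k' : ℕ),
      (y : G) ^ p ^ k = 1 → (y' : G) ^ p ^ k' = 1 → ∃ n : ℕ, ∀ q ∈ Q, Commute (((y : G) * y') ^ p ^ n) q) :
    ¬ Lib.Involves.Involves G ↥(Cfsg.qd p) := by
  rintro ⟨K, f, hf⟩
  have hTn := T_normal p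
  -- a Sylow `p`-subgroup of the preimage of the translations
  set M : Subgroup K := Subgroup.comap f (T p) with hM
  have hMn : M.Normal := hTn.comap f
  obtain ⟨S⟩ : Nonempty (Sylow p M) := inferInstance
  set S0 : Subgroup K := (S : Subgroup M).map M.subtype with hS0
  have hSM : S0 ≤ M := Subgroup.map_subtype_le _
  -- `S0` maps onto `T`
  have hSp : IsPGroup p S0 := S.isPGroup'.map _
  have hST : S0.map f = T p := by
    let g : M →* T p := f.subgroupComap (T p)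
    have hg : Function.Surjective g := by
      rintro ⟨y, hy⟩
      obtain ⟨x, hx⟩ := hf y
      refine ⟨⟨x, ?_⟩, ?_⟩
      · rw [hM, Subgroup.mem_comap, hx]
        exact hy
      · apply Subtype.ext
        exact hx
    have h1 : ((S.mapSurjective hg : Sylow p (T p)) : Subgroup (T p)) = ⊤ := by
      obtain ⟨Q⟩ : Nonempty (Sylow p (T p)) := inferInstance
      have h2 : IsPGroup p (⊤ : Subgroup (T p)) := (T_pgroup p).to_subgroup _
      exact ((S.mapSurjective hg).3 h2 le_top).symm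
    have h2 : (S : Subgroup M).map g = ⊤ := h1
    apply le_antisymm
    · rintro _ ⟨x, hx, rfl⟩
      exact hSM hx
    · intro y hy
      have h3 : (⟨y, hy⟩ : T p) ∈ (S : Subgroup M).map g := by rw [h2]; trivial
      obtain ⟨x, hx, hxy⟩ := h3
      exact ⟨x.1, ⟨x, hx, rfl⟩, congrArg Subtype.val hxy⟩
  -- Frattini
  have hF : Subgroup.normalizer (S0 : Set K) ⊔ M = ⊤ := Sylow.normalizer_sup_eq_top S
  set N := Subgroup.normalizer (S0 : Set K) with hN
  have hfN : ∀ y, ∃ x : K, x ∈ N ∧ f x = y := by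
    intro y
    obtain ⟨k, rfl⟩ := hf y
    have hk : k ∈ (M ⊔ N : Subgroup K) := by
      rw [sup_comm, hF]; trivial
    obtain ⟨m, hm, n, hn, rfl⟩ := Subgroup.mem_sup_of_normal_left.1 hk
    have h1 : f m ∈ S0.map f := by rw [hST]; exact hm
    obtain ⟨s, hs, hsm⟩ := h1
    refine ⟨s * n, N.mul_mem (Subgroup.le_normalizer hs) hn, ?_⟩
    rw [map_mul, map_mul, hsm]
  -- the two elements
  have hlift : ∀ A : S2 p, A ^ p = 1 → ∃ x : K, x ∈ N ∧ f x = ⟨diag A, diag_mem_qd A⟩ ∧ ∃ k : ℕ, x ^ p ^ k = 1 := by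
    intro A hA
    obtain ⟨x, hxN, hx⟩ := hfN ⟨diag A, diag_mem_qd A⟩
    obtain ⟨x', hx', hfx', hk⟩ := exists_pelement (p := p) f x (by
      rw [hx]
      apply Subtype.ext
      change diag A ^ p = 1
      rw [← map_pow, hA, map_one])
    refine ⟨x', ?_, by rw [hfx', hx], hk⟩
    have : zpowers x ≤ N := by rw [zpowers_le]; exact hxN
    exact this hx'
  obtain ⟨xa, haN, hfa, ka, hka⟩ := hlift _ (ua_pow_p p)
  obtain ⟨xb, hbN, hfb, kb, hkb⟩ := hlift _ (ub_pow_p p)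
  let Q : Subgroup G := S0.map K.subtype
  have hQ : IsPGroup p Q := hSp.map _
  have hNQ : ∀ x : K, x ∈ N → (x : G) ∈ normalizer (Q : Set G) := by
    intro x hxN
    have hx : ∀ s : K, s ∈ S0 ↔ x * s * x⁻¹ ∈ S0 := Subgroup.mem_normalizer_iff.1 hxN
    rw [Subgroup.mem_normalizer_iff]
    intro g
    constructor
    · rintro ⟨s, hs, rfl⟩
      exact ⟨x * s * x⁻¹, (hx s).1 hs, rfl⟩
    · rintro ⟨s, hs, hsg⟩
      refine ⟨x⁻¹ * s * x, ?_, ?_⟩
      · change x⁻¹ * s * x ∈ S0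
        rw [hx]
        have : x * (x⁻¹ * s * x) * x⁻¹ = s := by group
        rw [this]; exact hs
      · change (x : G)⁻¹ * (s : G) * x = g
        have hsg' : (s : G) = x * g * (x : G)⁻¹ := hsg
        rw [hsg']; group
  obtain ⟨n, hn⟩ := h Q hQ ⟨xa, hNQ xa haN⟩ ⟨xb, hNQ xb hbN⟩ ka kb
    (show (xa : G) ^ p ^ ka = 1 by exact_mod_cast congrArg Subtype.val hka)
    (show (xb : G) ^ p ^ kb = 1 by exact_mod_cast congrArg Subtype.val hkb)
  have hcent : ∀ s ∈ S0, Commute ((xa * xb) ^ p ^ n) s := by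
    intro s hs
    have h1 : Commute (((xa : G) * xb) ^ p ^ n) (s : G) := hn s ⟨s, hs, rfl⟩
    exact Subtype.ext h1.eq
  have hfc : f ((xa * xb) ^ p ^ n) ∈ T p := by
    apply Cfsg.Agent.H37.QdK.centralizer_T_le
    rw [mem_centralizer_iff]
    intro t ht
    have ht' : t ∈ S0.map f := by rw [hST]; exact ht
    obtain ⟨s, hs, rfl⟩ := ht'
    rw [← map_mul, ← map_mul, (hcent s hs).eq]
  obtain ⟨k, hk⟩ := T_pgroup p ⟨_, hfc⟩
  have hk' : f ((xa * xb) ^ p ^ n) ^ p ^ k = 1 := congrArg Subtype.val hk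
  rw [map_pow, ← pow_mul, ← pow_add, map_mul, hfa, hfb] at hk'
  have h4 : ((⟨diag (ua p), diag_mem_qd (ua p)⟩ : ↥(Cfsg.qd p)) * ⟨diag (ub p), diag_mem_qd (ub p)⟩) ^ 3 =
      ⟨diag (-1), diag_mem_qd (-1)⟩ := by
    apply Subtype.ext
    change (diag (ua p) * diag (ub p)) ^ 3 = diag (-1)
    rw [← map_mul, ← map_pow, uab_pow_three]
  have h5 := congrArg (fun t => t ^ 3) hk'
  simp only [one_pow] at h5
  rw [← pow_mul, mul_comm, pow_mul, h4] at h5
  have hk2 := congrArg Subtype.val h5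
  change diag (-1) ^ (p ^ (n + k)) = 1 at hk2
  rw [← map_pow] at hk2
  have hodd : Odd (p ^ (n + k)) := ((Fact.out : p.Prime).odd_of_ne_two hp).pow
  rw [hodd.neg_one_pow, ← map_one diag] at hk2
  have h6 := congrArg Subtype.val (diag_injective p hk2)
  rw [Matrix.SpecialLinearGroup.coe_neg, Matrix.SpecialLinearGroup.coe_one] at h6
  have h7 := congrFun (congrFun h6 0) 0
  simp at h7
  apply two_ne hp
  linear_combination -h7

/-- **If a Sylow `p`-subgroup is normal in the fusion system, `Qd(p)` is not involved**, `p` odd. -/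
theorem not_involves_of_isNormal {p : ℕ} [hpf : Fact p.Prime] (hp : p ≠ 2) {G : Type*} [Group G] [Finite G]
    (S : Sylow p G) (h : (Cfsg.groupFusionSystem (S : Subgroup G)).IsNormal S) :
    ¬ Lib.Involves.Involves G ↥(Cfsg.qd p) :=
  not_involves_of_pairs hp fun _ hQ y y' k k' hy hy' =>
    pairs (S := S) (fun _ hA _ hg => control h hA hg) hQ y y' k k' hy hy'

end Cfsg.Agent.H461.PStab
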